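import Cfsg.Agent.StdL.Defs
import Cfsg.Agent.S2086
import Cfsg.Agent.S2088
import Cfsg.Agent.Mult.Lift
import Cfsg.Agent.Mult.SporGen
import Cfsg.Agent.PLocal.Standard
import Cfsg.Agent.Block.ZStar

/-! From the hypotheses of S3127 to the standard set-up: `O(G) = 1`, `C(F*(G)) = 1`, `L ≤ E(G)`; `SL` lifts
to `L` because the odd part of its multiplier is trivial; `Z*` gives the commuting conjugate. -/

set_option autoImplicit false

namespace Cfsg.Agent.StdL

open Matrix Subgroup Cfsg.Agent.LnT Cfsg.Agent.PLocal.Amb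
open scoped commutatorElement

universe u

theorem pb_SL {m : ℕ} (hm : 3 ≤ m) {F : Type u} [Field F] [Fintype F] [CharP F 2]
    (hq : 2 < Fintype.card F ∨ 5 ≤ m) : Mult.PB 2 1 (SpecialLinearGroup (Fin m) F) := by
  have h3 : 3 ≤ Fintype.card (Fin m) := by rw [Fintype.card_fin]; exact hm
  have hev : 2 ∣ Nat.card F := by
    rw [Nat.card_eq_fintype_card]
    obtain ⟨n, -, hn⟩ := FiniteField.card F 2
    rw [hn]; exact dvd_pow_self 2 n.ne_zero
  rw [← Nat.card_eq_fintype_card] at hq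
  by_cases h : m = 3 ∧ Nat.card F = 4
  · obtain ⟨rfl, h4⟩ := h
    refine Mult.PB.of_forall Nat.prime_two fun Γ _ _ σ hσ hk => ?_
    have hΓ := Mult.Cov.perfect_of_stem hσ (Class.SL_commutator_eq_top h3)
    have hs := QuotientGroup.mk'_surjective (center (SpecialLinearGroup (Fin 3) F))
    have hs' : Function.Surjective ((QuotientGroup.mk' _).comp σ) := hs.comp hσ.1
    have h1 := Mult.card_ker_inf_commutator_dvd hs'
      (Mult.Cov.ker_comp_central hΓ hσ.2.1 (QuotientGroup.ker_mk' _).le)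
    rw [hΓ, inf_top_eq] at h1
    have h2 := Mult.Cov.card_eq_card_ker_mul hs'
    rw [Mult.Cov.card_eq_card_ker_mul hσ.1, Mult.Cov.card_eq_card_ker_mul hs, ← mul_assoc] at h2
    have h5 := Nat.eq_of_mul_eq_mul_right Nat.card_pos h2
    have h6 := Mult.mcard_eq (S2088.result (F := F) (by rw [← Nat.card_eq_fintype_card, h4]))
    rw [QuotientGroup.ker_mk', Class.card_center_SL, h4] at h5
    have h7 : Nat.card σ.ker * 3 ∣ 2 ^ 4 * 3 := by
      have : Nat.card σ.ker * 3 = _ := h5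
      rw [this]
      refine h1.trans (dvd_of_eq (h6.trans ?_))
      simp
    exact Nat.le_of_dvd one_pos ((hk.pow_right 4).dvd_of_dvd_mul_left (by
      rw [mul_one]; exact Nat.dvd_of_mul_dvd_mul_right (by norm_num) h7))
  · refine Mult.PB.of_mcard_le (Mult.mcard_SL h3 (fun e => ?_) fun e => Or.inl ?_).le
    · rw [Fintype.card_fin] at e
      refine Mult.exists_pow_ne_one_of_not_dvd fun h' => ?_
      have := (Nat.dvd_prime Nat.prime_three).1 h'
      omega
    · rw [Fintype.card_fin] at e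
      exact Mult.exists_pow_ne_one_of_lt two_pos (by omega)

theorem closure_isPE_SL {ι F : Type*} [Fintype ι] [DecidableEq ι] [Field F] [Finite F] [CharP F 2] :
    closure {g : SpecialLinearGroup ι F | Mult.IsPE 2 g} = ⊤ :=
  KSG.eq_top_of_tvE _ fun i j h a => subset_closure ⟨1, by
    rw [pow_one, sq, (KSG.stSL_tvE (ι := ι) (F := F)).add i j h, CharTwo.add_self_eq_zero,
      (KSG.stSL_tvE (ι := ι) (F := F)).zero h]⟩

theorem exists_lift_SL {L : Type*} [Group L] [Finite L] (hL : Cfsg.IsQuasisimple L)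
    (h2 : 2 ∣ Nat.card L) {m : ℕ} (hm : 3 ≤ m) {F : Type u} [Field F] [Fintype F] [CharP F 2]
    (hq : 2 < Fintype.card F ∨ 5 ≤ m)
    (e : (L ⧸ Cfsg.oddCore L) ≃* Matrix.ProjectiveSpecialLinearGroup (Fin m) F) :
    ∃ ψ : SpecialLinearGroup (Fin m) F →* L, Function.Surjective ψ ∧
      ∀ g, ψ g = 1 → g ∈ center (SpecialLinearGroup (Fin m) F) := by
  have : Fact (Nat.Prime 2) := ⟨Nat.prime_two⟩
  let σ : L →* Matrix.ProjectiveSpecialLinearGroup (Fin m) F :=
    e.toMonoidHom.comp (QuotientGroup.mk' _)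
  have hs : Function.Surjective σ := e.surjective.comp (QuotientGroup.mk'_surjective _)
  have hk : σ.ker = Cfsg.oddCore L := by
    ext x
    exact e.map_eq_one_iff.trans (QuotientGroup.eq_one_iff x)
  have hc : σ.ker ≤ center L := by
    rw [hk]
    refine (PLocal.qs_normal hL (Cfsg.oddCore L) inferInstance).resolve_left fun h =>
      Grp.not_dvd_card_pPrimeCore 2 L ?_
    rw [show Cfsg.pPrimeCore 2 L = ⊤ from h, card_top]
    exact h2
  obtain ⟨ψ, hψ⟩ := (pb_SL hm hq).exists_lift closure_isPE_SL hc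
    (by rw [hk]; exact Grp.pPrimeCore_coprime 2 L) (QuotientGroup.mk' _)
    (by rw [MonoidHom.range_eq_top.2 hs]; exact le_top)
  refine ⟨ψ, ?_, fun g hg => ?_⟩
  · have h1 : ∀ x : L, ∃ g, ∃ z ∈ center L, x = ψ g * z := fun x => by
      obtain ⟨g, hg⟩ := QuotientGroup.mk'_surjective _ (σ x)
      refine ⟨g, (ψ g)⁻¹ * x, hc ?_, by group⟩
      rw [MonoidHom.mem_ker, map_mul, map_inv, ← hg, ← hψ]
      exact inv_mul_cancel _
    rw [← MonoidHom.range_eq_top, eq_top_iff, ← hL.1.commutator_eq_top, commutator_def,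
      commutator_le]
    intro x _ y _
    obtain ⟨g, z, hz, rfl⟩ := h1 x
    obtain ⟨h, w, hw, rfl⟩ := h1 y
    refine ⟨⁅g, h⁆, ?_⟩
    rw [mem_center_iff] at hz hw
    rw [map_commutatorElement, commutatorElement_def, commutatorElement_def, _root_.mul_inv_rev,
      _root_.mul_inv_rev]
    have e1 : ψ g * z * (ψ h * w) * (z⁻¹ * (ψ g)⁻¹) * (w⁻¹ * (ψ h)⁻¹) =
        ψ g * (z * (ψ h * w) * z⁻¹) * ((ψ g)⁻¹ * w⁻¹ * (ψ h)⁻¹) := by group
    have e2 : (ψ g)⁻¹ * w⁻¹ = w⁻¹ * (ψ g)⁻¹ := by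
      rw [← _root_.mul_inv_rev, ← _root_.mul_inv_rev, hw]
    rw [e1, ← hz, e2]
    group
  · rw [← QuotientGroup.eq_one_iff]
    have := DFunLike.congr_fun hψ g
    rw [MonoidHom.comp_apply, hg, map_one] at this
    exact this.symm

theorem exists_su {G : Type*} [Group G] [Finite G]
    (hF : IsSimpleGroup ↥(Cfsg.generalizedFittingSubgroup G))
    (hF' : ¬ IsMulCommutative ↥(Cfsg.generalizedFittingSubgroup G)) (L : Subgroup G)
    (hL : Cfsg.IsStandardSubgroup L)
    (hR : ∀ R : Sylow 2 ↥(Subgroup.centralizer (L : Set G)),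
      IsCyclic ↥(R : Subgroup ↥(Subgroup.centralizer (L : Set G))))
    {m : ℕ} (hm : 3 ≤ m) {F : Type u} [Field F] [Fintype F] [CharP F 2]
    (hq : 2 < Fintype.card F ∨ 5 ≤ m)
    (hLX : Nonempty ((↥L ⧸ Cfsg.oddCore ↥L) ≃* Matrix.ProjectiveSpecialLinearGroup (Fin m) F)) :
    ∃ (r : SpecialLinearGroup (Fin m) F →* G) (t : G), Su r t ∧
      r.range ≤ Cfsg.generalizedFittingSubgroup G ∧
      ∃ g, g * t * g⁻¹ ≠ t ∧ g * t * g⁻¹ * t = t * (g * t * g⁻¹) := by
  open Cfsg Cfsg.Agent.PLocal in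
  have : Fact (Nat.Prime 2) := ⟨Nat.prime_two⟩
  obtain ⟨e⟩ := hLX
  have q := qs_of_simple hF hF'
  have bot : ∀ N : Subgroup G, N.Normal → ¬ generalizedFittingSubgroup G ≤ N →
      N ⊓ generalizedFittingSubgroup G = ⊥ := fun N _ h =>
    subgroupOf_eq_bot.1 ((hF.eq_bot_or_eq_top_of_normal (N.subgroupOf _) inferInstance).resolve_right
      fun e => h (subgroupOf_eq_top.1 e)) |>.eq_bot
  have hC : 𝐂[generalizedFittingSubgroup G] = ⊥ := (inf_eq_left.2 (centralizer_fstar_le G)).symm.trans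
    (bot _ inferInstance (qsS_not_le_centralizer q))
  have hO : oddCore G = ⊥ := by
    rw [eq_bot_iff, ← hC, ← commutator_eq_bot_iff_le_centralizer, eq_bot_iff,
      ← bot (oddCore G) inferInstance fun h => Grp.not_dvd_card_pPrimeCore 2 G
        ((two_dvd_card_of_perfect (qsS_commutator q) (qsS_ne_bot q)).trans (card_dvd_of_le h))]
    exact commutator_le_inf _ _
  obtain ⟨t, h1, ht⟩ := Inv.exists_involution_of_even hL.2.1.1
  obtain ⟨ψ, hs, hk⟩ := exists_lift_SL hL.1
    (two_dvd_card_of_perfect (qsS_commutator hL.1) (qsS_ne_bot hL.1)) hm hq e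
  have hr : (L.subtype.comp ψ).range = L := by
    rw [MonoidHom.range_comp, MonoidHom.range_eq_top.2 hs, ← MonoidHom.range_eq_map, range_subtype]
  have t1 : t ≠ 1 := by rintro rfl; simp at ht
  refine ⟨L.subtype.comp ψ, t, ⟨⟨by rw [Fintype.card_fin]; exact hm, ?_, fun g h => hk g
    (Subtype.ext h)⟩, by rw [← sq, ← ht, pow_orderOf_eq_one], t1, fun g => (h1 _ (ψ g).2).symm,
    fun c hc => ?_, fun P hP h2 => ?_⟩, ?_, ?_⟩
  · rwa [Nat.card_eq_fintype_card, Fintype.card_fin]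
  · rw [hr]
    exact Std.centralizer_le hL ht h1 (mem_centralizer_singleton_iff.2 hc)
  · have hP' : P ≤ 𝐂[L] := by
      refine hP.trans ?_
      rw [K0, hr]; exact inf_le_right
    obtain ⟨R, hR'⟩ := (h2.of_equiv (subgroupOfEquivOfLe hP').symm).exists_le_sylow
    have := hR R
    have := isCyclic_of_le hR'
    exact isCyclic_of_surjective _ (subgroupOfEquivOfLe hP').surjective
  · rw [hr]
    exact (pLayer_eq_layer_of_pPrimeCore_eq_bot hO ▸ Std.le_pLayer hL).trans layer_le_fstar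
  · by_contra! h
    have hz := Block.zstar (u := t) ⟨ht, fun g hg => by_contra fun e => h g e hg.eq.symm⟩
    refine t1 (mem_bot.1 (hC ▸ fun x _ => ?_))
    have h3 := hz x
    rw [show pPrimeCore 2 G = ⊥ from hO, mem_bot, mul_inv_eq_one, mul_inv_eq_iff_eq_mul] at h3
    exact h3.symm

end Cfsg.Agent.StdL
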